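import Mathlib
import Cfsg.Agent.Lib.Helper1.MixBase

/-!
# Splitting a central involution by transfer (helper1)

* `exists_complement_of_odd_index` : a central involution `z` that is split off in a
  subgroup of odd index is split off in the whole group (transfer).
* `card_closure_pair_le`, `card_closure_pair_ge` : order of a group generated by two involutions.
* `split_of_involution` : if `π : H → K` has kernel `{1, z}`, all involutions of `K` are
  conjugate, some involution of `H` lies outside the kernel, and `K` has a dihedral subgroup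
  of odd index generated by two involutions, then `z` has a complement.
* `alt_involution_cycleType`, `alt_involutions_conj` : involutions of `A_n`, `n ≤ 7`.
-/

set_option autoImplicit false

namespace Cfsg.Agent.Lib.Helper1.CS

theorem exists_complement_of_odd_index {H : Type*} [Group H] [Finite H] (z : H)
    (hz : z ∈ Subgroup.center H) (hz2 : z ^ 2 = 1)
    (P P₀ : Subgroup H) (hzP : z ∈ P) (hodd : ¬ 2 ∣ P.index) (hzP₀ : z ∉ P₀)
    (hcov : ∀ p ∈ P, p ∈ P₀ ∨ p * z ∈ P₀) :
    ∃ L : Subgroup H, z ∉ L ∧ ∀ h : H, h ∈ L ∨ z * h ∈ L := by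
  classical
  have hzc : ∀ g : H, g * z = z * g := fun g => Subgroup.mem_center_iff.mp hz g
  have hzz : z * z = 1 := by rw [← pow_two]; exact hz2
  let ϕ : P →* ℤˣ :=
    { toFun := fun p => if (p : H) ∈ P₀ then 1 else -1
      map_one' := by simp [P₀.one_mem]
      map_mul' := by
        intro p q
        show (if ((p : H) * (q : H)) ∈ P₀ then (1 : ℤˣ) else -1)
          = (if (p : H) ∈ P₀ then 1 else -1) * (if (q : H) ∈ P₀ then 1 else -1)
        by_cases hp : (p : H) ∈ P₀
        · by_cases hq : (q : H) ∈ P₀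
          · rw [if_pos hp, if_pos hq, if_pos (P₀.mul_mem hp hq), one_mul]
          · have : ¬ ((p : H) * (q : H)) ∈ P₀ := fun h => hq (by
              have := P₀.mul_mem (P₀.inv_mem hp) h
              rwa [inv_mul_cancel_left] at this)
            rw [if_pos hp, if_neg hq, if_neg this, one_mul]
        · by_cases hq : (q : H) ∈ P₀
          · have : ¬ ((p : H) * (q : H)) ∈ P₀ := fun h => hp (by
              have := P₀.mul_mem h (P₀.inv_mem hq)
              rwa [mul_inv_cancel_right] at this)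
            rw [if_neg hp, if_pos hq, if_neg this, mul_one]
          · have hp' : (p : H) * z ∈ P₀ := (hcov p p.2).resolve_left hp
            have hq' : (q : H) * z ∈ P₀ := (hcov q q.2).resolve_left hq
            have h3 : (p : H) * (q : H) = ((p : H) * z) * ((q : H) * z) := by
              rw [mul_assoc, ← mul_assoc z, ← hzc (q : H), mul_assoc (q : H), hzz, mul_one]
            have : ((p : H) * (q : H)) ∈ P₀ := by rw [h3]; exact P₀.mul_mem hp' hq'
            rw [if_neg hp, if_neg hq, if_pos this]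
            rfl }
  have hϕz : ϕ ⟨z, hzP⟩ = -1 := if_neg hzP₀
  have hidx : z ^ P.index = z := by
    obtain ⟨j, hj⟩ : ∃ j, P.index = 2 * j + 1 := by
      have : P.index % 2 = 1 := by omega
      exact ⟨P.index / 2, by omega⟩
    rw [hj, pow_succ, pow_mul, hz2, one_pow, one_mul]
  have hτ : ϕ.transfer z = -1 := by
    have key : ∀ (k : ℕ) (g₀ : H), g₀⁻¹ * z ^ k * g₀ ∈ P → g₀⁻¹ * z ^ k * g₀ = z ^ k := by
      intro k g₀ _
      have hc : g₀ * z ^ k = z ^ k * g₀ :=
        Subgroup.mem_center_iff.mp (Subgroup.pow_mem _ hz k) g₀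
      rw [mul_assoc, ← hc, inv_mul_cancel_left]
    rw [MonoidHom.transfer_eq_pow ϕ z key]
    have : (⟨z ^ P.index, by rw [hidx]; exact hzP⟩ : P) = ⟨z, hzP⟩ := Subtype.ext hidx
    rw [this, hϕz]
  refine ⟨ϕ.transfer.ker, ?_, ?_⟩
  · intro h
    rw [MonoidHom.mem_ker, hτ] at h
    exact absurd h (by decide)
  · intro h
    rcases Int.units_eq_one_or (ϕ.transfer h) with h1 | h1
    · left; exact h1
    · right
      rw [MonoidHom.mem_ker, map_mul, hτ, h1]
      rfl

theorem card_closure_pair_le {G : Type*} [Group G] [Finite G] (a b : G) (ha : a ^ 2 = 1)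
    (m : ℕ) (hm : 0 < m) (hr : (a * b) ^ m = 1) (hb : b ^ 2 = 1) :
    Nat.card (Subgroup.closure ({a, b} : Set G)) ≤ 2 * m := by
  have hainv : a⁻¹ = a := by
    rw [inv_eq_iff_mul_eq_one, ← pow_two]; exact ha
  have hbinv : b⁻¹ = b := by
    rw [inv_eq_iff_mul_eq_one, ← pow_two]; exact hb
  have hconj : a * (a * b) * a⁻¹ = (a * b)⁻¹ := by
    rw [mul_inv_rev, hainv, hbinv, ← mul_assoc, ← pow_two, ha, one_mul]
  have hnorm1 : ∀ x, x ∈ Subgroup.zpowers (a * b) → a * x * a⁻¹ ∈ Subgroup.zpowers (a * b) := by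
    intro x hx
    obtain ⟨k, rfl⟩ := Subgroup.mem_zpowers_iff.mp hx
    rw [← conj_zpow, hconj]
    exact Subgroup.zpow_mem _ (Subgroup.inv_mem _ (Subgroup.mem_zpowers _)) k
  have hnorm : Subgroup.zpowers a ≤ Subgroup.normalizer (Subgroup.zpowers (a * b) : Set G) := by
    rw [Subgroup.zpowers_le, Subgroup.mem_normalizer_iff]
    intro x
    constructor
    · exact hnorm1 x
    · intro hx
      have := hnorm1 _ hx
      rw [hainv] at this
      have h2 : a * (a * x * a) * a = x := by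
        have haa : a * a = 1 := by rw [← pow_two]; exact ha
        calc a * (a * x * a) * a = (a * a) * x * (a * a) := by group
          _ = x := by rw [haa, one_mul, mul_one]
      rw [h2] at this
      exact this
  have hle : Subgroup.closure ({a, b} : Set G)
      ≤ Subgroup.zpowers a ⊔ Subgroup.zpowers (a * b) := by
    rw [Subgroup.closure_le]
    intro x hx
    rcases hx with rfl | rfl
    · exact (le_sup_left : Subgroup.zpowers x ≤ _) (Subgroup.mem_zpowers x)
    · have h1 : a⁻¹ ∈ Subgroup.zpowers a ⊔ Subgroup.zpowers (a * x) :=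
        (le_sup_left : Subgroup.zpowers a ≤ _) (Subgroup.inv_mem _ (Subgroup.mem_zpowers a))
      have h2 : a * x ∈ Subgroup.zpowers a ⊔ Subgroup.zpowers (a * x) :=
        (le_sup_right : Subgroup.zpowers (a * x) ≤ _) (Subgroup.mem_zpowers _)
      have := Subgroup.mul_mem _ h1 h2
      rwa [inv_mul_cancel_left] at this
  have h1 := Cfsg.Agent.Lib.Helper1.Mix.card_sup_dvd (Subgroup.zpowers a)
    (Subgroup.zpowers (a * b)) hnorm
  have h2 : Nat.card (Subgroup.zpowers a) ∣ 2 := by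
    rw [Nat.card_zpowers]; exact orderOf_dvd_of_pow_eq_one ha
  have h3 : Nat.card (Subgroup.zpowers (a * b)) ∣ m := by
    rw [Nat.card_zpowers]; exact orderOf_dvd_of_pow_eq_one hr
  have h4 : Nat.card (Subgroup.zpowers a ⊔ Subgroup.zpowers (a * b) : Subgroup G) ∣ 2 * m :=
    h1.trans (Nat.mul_dvd_mul h2 h3)
  calc Nat.card (Subgroup.closure ({a, b} : Set G))
      ≤ Nat.card (Subgroup.zpowers a ⊔ Subgroup.zpowers (a * b) : Subgroup G) :=
        Subgroup.card_le_of_le hle
    _ ≤ 2 * m := Nat.le_of_dvd (by omega) h4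

theorem card_closure_pair_ge {G : Type*} [Group G] [Finite G] (a b : G) (ha : a ^ 2 = 1)
    (hb : b ^ 2 = 1) (ha1 : a ≠ 1) (hb1 : b ≠ 1) (m : ℕ) (hm : orderOf (a * b) = m) :
    2 * m ≤ Nat.card (Subgroup.closure ({a, b} : Set G)) := by
  have hainv : a⁻¹ = a := by
    rw [inv_eq_iff_mul_eq_one, ← pow_two]; exact ha
  have hbinv : b⁻¹ = b := by
    rw [inv_eq_iff_mul_eq_one, ← pow_two]; exact hb
  have haD : a ∈ Subgroup.closure ({a, b} : Set G) := Subgroup.subset_closure (by simp)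
  have hbD : b ∈ Subgroup.closure ({a, b} : Set G) := Subgroup.subset_closure (by simp)
  have hRD : Subgroup.zpowers (a * b) ≤ Subgroup.closure ({a, b} : Set G) := by
    rw [Subgroup.zpowers_le]; exact Subgroup.mul_mem _ haD hbD
  have haR : a ∉ Subgroup.zpowers (a * b) := by
    intro h
    obtain ⟨k, hk⟩ := Subgroup.mem_zpowers_iff.mp h
    -- a commutes with a*b
    have hcomm : a * (a * b) = (a * b) * a := by
      have h' : Commute ((a * b) ^ k) (a * b) := (Commute.refl (a * b)).zpow_left k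
      rw [hk] at h'
      exact h'.eq
    have hconj : a * (a * b) * a⁻¹ = (a * b)⁻¹ := by
      rw [mul_inv_rev, hainv, hbinv, ← mul_assoc, ← pow_two, ha, one_mul]
    rw [hcomm, mul_inv_cancel_right] at hconj
    -- (a*b) = (a*b)⁻¹, so (a*b)^2 = 1
    have hsq : (a * b) * (a * b) = 1 := by
      nth_rewrite 2 [hconj]
      exact mul_inv_cancel _
    rcases Int.even_or_odd k with ⟨j, hj⟩ | ⟨j, hj⟩
    · have : (a * b) ^ k = 1 := by
        rw [hj, ← two_mul, zpow_mul, zpow_two, hsq, one_zpow]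
      rw [this] at hk
      exact ha1 hk.symm
    · have : (a * b) ^ k = a * b := by
        rw [hj, zpow_add, zpow_mul, zpow_two, hsq, one_zpow, one_mul, zpow_one]
      rw [this] at hk
      have : b = 1 := by
        have h5 : a * b = a * 1 := by rw [mul_one]; exact hk
        exact mul_left_cancel h5
      exact hb1 this
  have hcardR : Nat.card (Subgroup.zpowers (a * b)) = m := by
    rw [Nat.card_zpowers, hm]
  have hdvd : Nat.card (Subgroup.zpowers (a * b)) ∣ Nat.card (Subgroup.closure ({a, b} : Set G)) :=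
    Subgroup.card_dvd_of_le hRD
  have hne : Nat.card (Subgroup.zpowers (a * b)) ≠ Nat.card (Subgroup.closure ({a, b} : Set G)) := by
    intro h
    have := Subgroup.eq_of_le_of_card_ge hRD h.ge
    rw [this] at haR
    exact haR haD
  obtain ⟨c, hc⟩ := hdvd
  have hpos : 0 < Nat.card (Subgroup.closure ({a, b} : Set G)) := Nat.card_pos
  rw [hcardR] at hc hne
  have hc2 : 2 ≤ c := by
    rcases c with _ | _ | c
    · rw [hc] at hpos; simp at hpos
    · exact absurd (by rw [hc]; simp) hne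
    · omega
  calc 2 * m = m * 2 := mul_comm _ _
    _ ≤ m * c := Nat.mul_le_mul_left m hc2
    _ = _ := hc.symm

theorem split_of_involution {H K : Type*} [Group H] [Group K] [Finite H] [Finite K]
    (π : H →* K) (hπ : Function.Surjective π) (z : H) (hz : z ∈ Subgroup.center H)
    (hz1 : z ≠ 1) (hz2 : z ^ 2 = 1)
    (hker : ∀ h : H, π h = 1 ↔ h = 1 ∨ h = z)
    (hconj : ∀ s s' : K, orderOf s = 2 → orderOf s' = 2 → ∃ g : K, g * s * g⁻¹ = s')
    (t : H) (ht2 : t ^ 2 = 1) (ht : π t ≠ 1)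
    (a' b' : K) (ha' : orderOf a' = 2) (hb' : orderOf b' = 2) (m : ℕ) (hm : 0 < m)
    (hab' : orderOf (a' * b') = 2 * m) (hcard : ¬ (8 * m ∣ Nat.card K)) :
    ∃ L : Subgroup H, z ∉ L ∧ ∀ h : H, h ∈ L ∨ z * h ∈ L := by
  classical
  have hzc : ∀ g : H, g * z = z * g := fun g => Subgroup.mem_center_iff.mp hz g
  have hzz : z * z = 1 := by rw [← pow_two]; exact hz2
  have hπt : orderOf (π t) = 2 := by
    refine orderOf_eq_prime ?_ ht
    rw [← map_pow, ht2, map_one]
  have claimA : ∀ h : H, orderOf (π h) = 2 → h ^ 2 = 1 := by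
    intro h hh
    obtain ⟨g, hg⟩ := hconj (π t) (π h) hπt hh
    obtain ⟨g', rfl⟩ := hπ g
    have h1 : π (h⁻¹ * (g' * t * g'⁻¹)) = 1 := by
      rw [map_mul, map_mul, map_mul, map_inv, map_inv, hg, inv_mul_cancel]
    have hc2 : (g' * t * g'⁻¹) ^ 2 = 1 := by
      rw [conj_pow, ht2, mul_one, mul_inv_cancel]
    rcases (hker _).mp h1 with h2 | h2
    · have : g' * t * g'⁻¹ = h := by
        rw [inv_mul_eq_one] at h2; exact h2.symm
      rw [← this]; exact hc2
    · have : g' * t * g'⁻¹ = h * z := by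
        rw [inv_mul_eq_iff_eq_mul] at h2; exact h2
      rw [this, (show Commute h z from hzc h).mul_pow, hz2, mul_one] at hc2
      exact hc2
  obtain ⟨a, rfl⟩ := hπ a'
  obtain ⟨b, rfl⟩ := hπ b'
  have ha2 : a ^ 2 = 1 := claimA a ha'
  have hb2 : b ^ 2 = 1 := claimA b hb'
  have hpow : orderOf (π ((a * b) ^ m)) = 2 := by
    rw [map_pow, map_mul, orderOf_pow' _ hm.ne', hab', Nat.gcd_eq_right (dvd_mul_left m 2),
      Nat.mul_div_cancel _ hm]
  have hr : (a * b) ^ (2 * m) = 1 := by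
    have := claimA _ hpow
    rw [← pow_mul] at this
    rw [mul_comm]; exact this
  have hP₀le : Nat.card (Subgroup.closure ({a, b} : Set H)) ≤ 2 * (2 * m) :=
    card_closure_pair_le a b ha2 (2 * m) (by omega) hr hb2
  have ha1 : π a ≠ 1 := by intro h; rw [h, orderOf_one] at ha'; omega
  have hb1 : π b ≠ 1 := by intro h; rw [h, orderOf_one] at hb'; omega
  have hDge : 2 * (2 * m) ≤ Nat.card (Subgroup.closure ({π a, π b} : Set K)) :=
    card_closure_pair_ge (π a) (π b) (by rw [← ha']; exact pow_orderOf_eq_one _)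
      (by rw [← hb']; exact pow_orderOf_eq_one _) ha1 hb1 (2 * m) hab'
  have hmap : (Subgroup.closure ({a, b} : Set H)).map π
      = Subgroup.closure ({π a, π b} : Set K) := by
    rw [MonoidHom.map_closure, Set.image_pair]
  set P₀ := Subgroup.closure ({a, b} : Set H) with hP₀
  set D := Subgroup.closure ({π a, π b} : Set K) with hD
  let f : P₀ → D := fun p => ⟨π p, by rw [← hmap]; exact Subgroup.mem_map_of_mem _ p.2⟩
  have hf : Function.Surjective f := by
    rintro ⟨d, hd⟩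
    rw [← hmap] at hd
    obtain ⟨p, hp, rfl⟩ := Subgroup.mem_map.mp hd
    exact ⟨⟨p, hp⟩, rfl⟩
  have hle2 : Nat.card D ≤ Nat.card P₀ := Nat.card_le_card_of_surjective f hf
  have hfb : Function.Bijective f := hf.bijective_of_nat_card_le (by omega)
  have hcardD : Nat.card D = 2 * (2 * m) := by omega
  have hzP₀ : z ∉ P₀ := by
    intro h
    have h1 : f ⟨z, h⟩ = f 1 := by
      apply Subtype.ext
      show π z = π ((1 : P₀) : H)
      rw [Subgroup.coe_one, map_one]
      exact (hker z).mpr (Or.inr rfl)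
    have h2 := hfb.1 h1
    exact hz1 (congrArg Subtype.val h2)
  have hidx : (D.comap π).index = D.index := Subgroup.index_comap_of_surjective D hπ
  have hodd : ¬ 2 ∣ (D.comap π).index := by
    rw [hidx]
    rintro ⟨c, hc⟩
    apply hcard
    have h1 := Subgroup.index_mul_card D
    rw [hc, hcardD] at h1
    exact ⟨c, by rw [← h1]; ring⟩
  have hzP : z ∈ D.comap π := by
    rw [Subgroup.mem_comap, (hker z).mpr (Or.inr rfl)]
    exact D.one_mem
  have hcov : ∀ p ∈ D.comap π, p ∈ P₀ ∨ p * z ∈ P₀ := by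
    intro p hp
    rw [Subgroup.mem_comap, ← hmap] at hp
    obtain ⟨q, hq, hqp⟩ := Subgroup.mem_map.mp hp
    have h1 : π (q⁻¹ * p) = 1 := by
      rw [map_mul, map_inv, hqp, inv_mul_cancel]
    rcases (hker _).mp h1 with h2 | h2
    · left
      rw [inv_mul_eq_one] at h2
      rw [← h2]; exact hq
    · right
      rw [inv_mul_eq_iff_eq_mul] at h2
      rw [h2, mul_assoc, hzz, mul_one]
      exact hq
  exact exists_complement_of_odd_index z hz hz2 (D.comap π) P₀ hzP hodd hzP₀ hcov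

theorem alt_involution_cycleType {n : ℕ} (hn : n ≤ 7) (s : Equiv.Perm (Fin n))
    (hsign : Equiv.Perm.sign s = 1) (hs : orderOf s = 2) : s.cycleType = {2, 2} := by
  have hp : (orderOf s).Prime := by rw [hs]; exact Nat.prime_two
  obtain ⟨k, hk⟩ := Equiv.Perm.cycleType_prime_order hp
  rw [hs] at hk
  have hsum : s.cycleType.sum ≤ n := by
    rw [Equiv.Perm.sum_cycleType]
    calc s.support.card ≤ Fintype.card (Fin n) := Finset.card_le_univ _
      _ = n := Fintype.card_fin n
  rw [hk, Multiset.sum_replicate, smul_eq_mul] at hsum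
  have hsg := Equiv.Perm.sign_of_cycleType s
  rw [hsign, hk, Multiset.sum_replicate, Multiset.card_replicate, smul_eq_mul] at hsg
  have hk3 : k + 1 ≤ 3 := by omega
  have hk1 : k = 1 := by
    rcases k with _ | _ | _ | k
    · exact absurd hsg (by decide)
    · rfl
    · exact absurd hsg (by decide)
    · omega
  rw [hk, hk1]
  rfl

theorem alt_involutions_conj {n : ℕ} (hn : n ≤ 7) (s s' : alternatingGroup (Fin n))
    (hs : orderOf s = 2) (hs' : orderOf s' = 2) :
    ∃ g : alternatingGroup (Fin n), g * s * g⁻¹ = s' := by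
  classical
  have h1 : orderOf (s : Equiv.Perm (Fin n)) = 2 := by rw [Subgroup.orderOf_coe]; exact hs
  have h1' : orderOf (s' : Equiv.Perm (Fin n)) = 2 := by rw [Subgroup.orderOf_coe]; exact hs'
  have hc : (s : Equiv.Perm (Fin n)).cycleType = (s' : Equiv.Perm (Fin n)).cycleType := by
    rw [alt_involution_cycleType hn _ (Equiv.Perm.mem_alternatingGroup.mp s.2) h1,
      alt_involution_cycleType hn _ (Equiv.Perm.mem_alternatingGroup.mp s'.2) h1']
  obtain ⟨g, hg⟩ := isConj_iff.mp ((Equiv.Perm.isConj_iff_cycleType_eq).mpr hc)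
  rcases Int.units_eq_one_or (Equiv.Perm.sign g) with hsg | hsg
  · refine ⟨⟨g, Equiv.Perm.mem_alternatingGroup.mpr hsg⟩, ?_⟩
    apply Subtype.ext
    exact hg
  · have hne : (s : Equiv.Perm (Fin n)) ≠ 1 := by
      intro h; rw [h, orderOf_one] at h1; omega
    obtain ⟨x, hx⟩ : ∃ x, (s : Equiv.Perm (Fin n)) x ≠ x := by
      by_contra hcon
      push Not at hcon
      exact hne (Equiv.ext hcon)
    have hss : (s : Equiv.Perm (Fin n)) ((s : Equiv.Perm (Fin n)) x) = x := by
      have h2 : (s : Equiv.Perm (Fin n)) ^ 2 = 1 := by rw [← h1]; exact pow_orderOf_eq_one _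
      have h3 := congrArg (fun f : Equiv.Perm (Fin n) => f x) h2
      simpa [pow_two] using h3
    set w : Equiv.Perm (Fin n) := Equiv.swap x ((s : Equiv.Perm (Fin n)) x) with hw
    have hcomm : (s : Equiv.Perm (Fin n)) * w = w * (s : Equiv.Perm (Fin n)) := by
      rw [hw, Equiv.mul_swap_eq_swap_mul, hss, Equiv.swap_comm]
    have hwsign : Equiv.Perm.sign w = -1 := Equiv.Perm.sign_swap (Ne.symm hx)
    have hww : w * w = 1 := Equiv.swap_mul_self _ _
    have hwinv : w⁻¹ = w := by rw [inv_eq_iff_mul_eq_one]; exact hww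
    refine ⟨⟨g * w, Equiv.Perm.mem_alternatingGroup.mpr (by
      rw [Equiv.Perm.sign_mul, hsg, hwsign]; rfl)⟩, ?_⟩
    apply Subtype.ext
    show g * w * (s : Equiv.Perm (Fin n)) * (g * w)⁻¹ = (s' : Equiv.Perm (Fin n))
    rw [← hg, mul_inv_rev, hwinv]
    calc g * w * (s : Equiv.Perm (Fin n)) * (w * g⁻¹)
        = g * (w * (s : Equiv.Perm (Fin n))) * w * g⁻¹ := by group
      _ = g * ((s : Equiv.Perm (Fin n)) * w) * w * g⁻¹ := by rw [hcomm]
      _ = g * (s : Equiv.Perm (Fin n)) * (w * w) * g⁻¹ := by group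
      _ = g * (s : Equiv.Perm (Fin n)) * g⁻¹ := by rw [hww, mul_one]

theorem card_alt (n : ℕ) (hn : 2 ≤ n) :
    2 * Nat.card (alternatingGroup (Fin n)) = n.factorial := by
  have : Nontrivial (Fin n) := Fin.nontrivial_iff_two_le.mpr hn
  rw [Nat.card_eq_fintype_card, two_mul_card_alternatingGroup, Fintype.card_perm,
    Fintype.card_fin]

theorem dswap_mem {n : ℕ} (a b c d : Fin n) (hab : a ≠ b) (hcd : c ≠ d) :
    Equiv.swap a b * Equiv.swap c d ∈ alternatingGroup (Fin n) := by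
  rw [Equiv.Perm.mem_alternatingGroup, Equiv.Perm.sign_mul, Equiv.Perm.sign_swap hab,
    Equiv.Perm.sign_swap hcd]
  rfl

theorem alt_dihedral_data {n : ℕ} (h4 : 4 ≤ n) (h7 : n ≤ 7) :
    ∃ (a b : alternatingGroup (Fin n)) (m : ℕ), orderOf a = 2 ∧ orderOf b = 2 ∧ 0 < m ∧
      orderOf (a * b) = 2 * m ∧ ¬ (8 * m ∣ Nat.card (alternatingGroup (Fin n))) := by
  interval_cases n
  · have hc := card_alt 4 (by norm_num)
    have hf : (4 : ℕ).factorial = 24 := by decide
    rw [hf] at hc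
    have ea2 : (Equiv.swap 0 1 * Equiv.swap 2 3 : Equiv.Perm (Fin 4)) ^ 2 = 1 := by decide
    have ea1 : (Equiv.swap 0 1 * Equiv.swap 2 3 : Equiv.Perm (Fin 4)) ≠ 1 := by decide
    have eb2 : (Equiv.swap 0 2 * Equiv.swap 1 3 : Equiv.Perm (Fin 4)) ^ 2 = 1 := by decide
    have eb1 : (Equiv.swap 0 2 * Equiv.swap 1 3 : Equiv.Perm (Fin 4)) ≠ 1 := by decide
    have ec2 : ((Equiv.swap 0 1 * Equiv.swap 2 3) * (Equiv.swap 0 2 * Equiv.swap 1 3) :
      Equiv.Perm (Fin 4)) ^ 2 = 1 := by decide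
    have ec1 : ((Equiv.swap 0 1 * Equiv.swap 2 3) * (Equiv.swap 0 2 * Equiv.swap 1 3) :
      Equiv.Perm (Fin 4)) ≠ 1 := by decide
    refine ⟨⟨Equiv.swap 0 1 * Equiv.swap 2 3, dswap_mem _ _ _ _ (by decide) (by decide)⟩,
      ⟨Equiv.swap 0 2 * Equiv.swap 1 3, dswap_mem _ _ _ _ (by decide) (by decide)⟩, 1,
      ?_, ?_, by norm_num, ?_, ?_⟩
    · rw [← Subgroup.orderOf_coe]; exact orderOf_eq_prime ea2 ea1
    · rw [← Subgroup.orderOf_coe]; exact orderOf_eq_prime eb2 eb1
    · rw [← Subgroup.orderOf_coe]; show orderOf _ = 2; exact orderOf_eq_prime ec2 ec1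
    · omega
  · have hc := card_alt 5 (by norm_num)
    have hf : (5 : ℕ).factorial = 120 := by decide
    rw [hf] at hc
    have ea2 : (Equiv.swap 0 1 * Equiv.swap 2 3 : Equiv.Perm (Fin 5)) ^ 2 = 1 := by decide
    have ea1 : (Equiv.swap 0 1 * Equiv.swap 2 3 : Equiv.Perm (Fin 5)) ≠ 1 := by decide
    have eb2 : (Equiv.swap 0 2 * Equiv.swap 1 3 : Equiv.Perm (Fin 5)) ^ 2 = 1 := by decide
    have eb1 : (Equiv.swap 0 2 * Equiv.swap 1 3 : Equiv.Perm (Fin 5)) ≠ 1 := by decide
    have ec2 : ((Equiv.swap 0 1 * Equiv.swap 2 3) * (Equiv.swap 0 2 * Equiv.swap 1 3) :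
      Equiv.Perm (Fin 5)) ^ 2 = 1 := by decide
    have ec1 : ((Equiv.swap 0 1 * Equiv.swap 2 3) * (Equiv.swap 0 2 * Equiv.swap 1 3) :
      Equiv.Perm (Fin 5)) ≠ 1 := by decide
    refine ⟨⟨Equiv.swap 0 1 * Equiv.swap 2 3, dswap_mem _ _ _ _ (by decide) (by decide)⟩,
      ⟨Equiv.swap 0 2 * Equiv.swap 1 3, dswap_mem _ _ _ _ (by decide) (by decide)⟩, 1,
      ?_, ?_, by norm_num, ?_, ?_⟩
    · rw [← Subgroup.orderOf_coe]; exact orderOf_eq_prime ea2 ea1
    · rw [← Subgroup.orderOf_coe]; exact orderOf_eq_prime eb2 eb1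
    · rw [← Subgroup.orderOf_coe]; show orderOf _ = 2; exact orderOf_eq_prime ec2 ec1
    · omega
  · have hc := card_alt 6 (by norm_num)
    have hf : (6 : ℕ).factorial = 720 := by decide
    rw [hf] at hc
    have ea2 : (Equiv.swap 0 1 * Equiv.swap 2 3 : Equiv.Perm (Fin 6)) ^ 2 = 1 := by decide
    have ea1 : (Equiv.swap 0 1 * Equiv.swap 2 3 : Equiv.Perm (Fin 6)) ≠ 1 := by decide
    have eb2 : (Equiv.swap 0 2 * Equiv.swap 4 5 : Equiv.Perm (Fin 6)) ^ 2 = 1 := by decide
    have eb1 : (Equiv.swap 0 2 * Equiv.swap 4 5 : Equiv.Perm (Fin 6)) ≠ 1 := by decide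
    have ec2 : ¬ ((Equiv.swap 0 1 * Equiv.swap 2 3) * (Equiv.swap 0 2 * Equiv.swap 4 5) :
      Equiv.Perm (Fin 6)) ^ 2 ^ 1 = 1 := by decide
    have ec1 : ((Equiv.swap 0 1 * Equiv.swap 2 3) * (Equiv.swap 0 2 * Equiv.swap 4 5) :
      Equiv.Perm (Fin 6)) ^ 2 ^ (1 + 1) = 1 := by decide
    refine ⟨⟨Equiv.swap 0 1 * Equiv.swap 2 3, dswap_mem _ _ _ _ (by decide) (by decide)⟩,
      ⟨Equiv.swap 0 2 * Equiv.swap 4 5, dswap_mem _ _ _ _ (by decide) (by decide)⟩, 2,
      ?_, ?_, by norm_num, ?_, ?_⟩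
    · rw [← Subgroup.orderOf_coe]; exact orderOf_eq_prime ea2 ea1
    · rw [← Subgroup.orderOf_coe]; exact orderOf_eq_prime eb2 eb1
    · rw [← Subgroup.orderOf_coe]; show orderOf _ = 2 ^ (1 + 1)
      exact orderOf_eq_prime_pow ec2 ec1
    · omega
  · have hc := card_alt 7 (by norm_num)
    have hf : (7 : ℕ).factorial = 5040 := by decide
    rw [hf] at hc
    have ea2 : (Equiv.swap 0 1 * Equiv.swap 2 3 : Equiv.Perm (Fin 7)) ^ 2 = 1 := by decide
    have ea1 : (Equiv.swap 0 1 * Equiv.swap 2 3 : Equiv.Perm (Fin 7)) ≠ 1 := by decide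
    have eb2 : (Equiv.swap 0 2 * Equiv.swap 4 5 : Equiv.Perm (Fin 7)) ^ 2 = 1 := by decide
    have eb1 : (Equiv.swap 0 2 * Equiv.swap 4 5 : Equiv.Perm (Fin 7)) ≠ 1 := by decide
    have ec2 : ¬ ((Equiv.swap 0 1 * Equiv.swap 2 3) * (Equiv.swap 0 2 * Equiv.swap 4 5) :
      Equiv.Perm (Fin 7)) ^ 2 ^ 1 = 1 := by decide
    have ec1 : ((Equiv.swap 0 1 * Equiv.swap 2 3) * (Equiv.swap 0 2 * Equiv.swap 4 5) :
      Equiv.Perm (Fin 7)) ^ 2 ^ (1 + 1) = 1 := by decide
    refine ⟨⟨Equiv.swap 0 1 * Equiv.swap 2 3, dswap_mem _ _ _ _ (by decide) (by decide)⟩,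
      ⟨Equiv.swap 0 2 * Equiv.swap 4 5, dswap_mem _ _ _ _ (by decide) (by decide)⟩, 2,
      ?_, ?_, by norm_num, ?_, ?_⟩
    · rw [← Subgroup.orderOf_coe]; exact orderOf_eq_prime ea2 ea1
    · rw [← Subgroup.orderOf_coe]; exact orderOf_eq_prime eb2 eb1
    · rw [← Subgroup.orderOf_coe]; show orderOf _ = 2 ^ (1 + 1)
      exact orderOf_eq_prime_pow ec2 ec1
    · omega

end Cfsg.Agent.Lib.Helper1.CS
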