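import Mathlib

/-!
# A double cover of the alternating group (helper1)

Operators `M i`, `W k` on the space of functions `(Fin n → ZMod 2) → ZMod 3`:
the `M i` are pairwise anticommuting involutions (a Clifford system), the `W k`
anticommute with all `M i`.  For `a ≠ b` the operator `u a b = M a - M b` is invertible
and conjugation by it acts on the `M i` as the transposition `(a b)` up to the sign `-1`.
The group `Gam n` of pairs `(σ, g)` with `σ` even and `g` a linear automorphism with
`g ∘ M i = M (σ i) ∘ g`, `g ∘ W k = W k ∘ g` is a double cover of the alternating group.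
-/

set_option autoImplicit false

namespace Cfsg.Agent.Lib.Helper1.DC

/-- the sign character of `ZMod 2` with values in `ZMod 3` -/
def chi (a : ZMod 2) : ZMod 3 := if a = 0 then 1 else -1

lemma chi_add (a b : ZMod 2) : chi (a + b) = chi a * chi b := by revert a b; decide
lemma chi_zero : chi 0 = 1 := by decide
lemma chi_one : chi 1 = -1 := by decide
lemma chi_mul_self (a : ZMod 2) : chi a * chi a = 1 := by revert a; decide
lemma chi_inj (a b : ZMod 2) (h : chi a = chi b) : a = b := by revert a b; decide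
lemma z2_add_self (a : ZMod 2) : a + a = 0 := by revert a; decide
lemma z3_three (t : ZMod 3) : t + t + t = 0 := by revert t; decide

abbrev X (n : ℕ) := Fin n → ZMod 2
abbrev V (n : ℕ) := X n → ZMod 3

variable {n : ℕ}

/-- sum of the coordinates before `i` -/
def lam (i : Fin n) (x : X n) : ZMod 2 := ∑ j ∈ Finset.univ.filter (· < i), x j

lemma lam_add (i : Fin n) (x y : X n) : lam i (x + y) = lam i x + lam i y := by
  simp [lam, Finset.sum_add_distrib]

lemma lam_zero (i : Fin n) : lam i (0 : X n) = 0 := by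
  simp [lam]

/-- the standard basis vector -/
def e (i : Fin n) : X n := Pi.single i 1

lemma lam_e (i k : Fin n) : lam i (e k) = if k < i then 1 else 0 := by
  simp [lam, e, Finset.sum_pi_single']

lemma e_apply (i k : Fin n) : e i k = if k = i then 1 else 0 := by
  simp [e, Pi.single_apply]

lemma add_e_e (x : X n) (i : Fin n) : x + e i + e i = x := by
  funext j
  simp only [Pi.add_apply, add_assoc, z2_add_self, add_zero]

/-- the Clifford generators -/
def M (i : Fin n) : V n →ₗ[ZMod 3] V n where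
  toFun f := fun x => chi (lam i x) * f (x + e i)
  map_add' f f' := by funext x; simp [mul_add]
  map_smul' c f := by funext x; simp [mul_left_comm]

/-- the commuting (up to sign) operators -/
def W (k : Fin n) : V n →ₗ[ZMod 3] V n where
  toFun f := fun x => chi (lam k x + x k) * f (x + e k)
  map_add' f f' := by funext x; simp [mul_add]
  map_smul' c f := by funext x; simp [mul_left_comm]

lemma M_apply (i : Fin n) (f : V n) (x : X n) : M i f x = chi (lam i x) * f (x + e i) := rfl
lemma W_apply (k : Fin n) (f : V n) (x : X n) :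
    W k f x = chi (lam k x + x k) * f (x + e k) := rfl

lemma M_M (i : Fin n) (f : V n) : M i (M i f) = f := by
  funext x
  simp only [M_apply, lam_add, lam_e, lt_irrefl, if_false, add_zero, add_e_e]
  rw [← mul_assoc, chi_mul_self, one_mul]

lemma M_anti {i j : Fin n} (h : i ≠ j) (f : V n) : M i (M j f) = -M j (M i f) := by
  funext x
  simp only [M_apply, Pi.neg_apply, lam_add, lam_e, chi_add]
  rw [add_right_comm x (e j) (e i)]
  rcases lt_or_gt_of_ne h with h1 | h1
  · have h2 : ¬ j < i := not_lt.mpr h1.le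
    simp only [h1, h2, if_true, if_false, chi_one, chi_zero]
    ring
  · have h2 : ¬ i < j := not_lt.mpr h1.le
    simp only [h1, h2, if_true, if_false, chi_one, chi_zero]
    ring

lemma M_W (i k : Fin n) (f : V n) : M i (W k f) = -W k (M i f) := by
  funext x
  simp only [M_apply, W_apply, Pi.neg_apply, lam_add, lam_e, chi_add, Pi.add_apply, e_apply]
  rw [add_right_comm x (e k) (e i)]
  rcases lt_trichotomy i k with h1 | h1 | h1
  · have h2 : ¬ k < i := not_lt.mpr h1.le
    have h3 : k ≠ i := h1.ne'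
    simp only [h1, h2, h3, if_true, if_false, chi_one, chi_zero]
    ring
  · subst h1
    simp only [lt_irrefl, if_true, if_false, chi_one, chi_zero]
    ring
  · have h2 : ¬ i < k := not_lt.mpr h1.le
    have h3 : k ≠ i := h1.ne
    simp only [h1, h2, h3, if_true, if_false, chi_one, chi_zero]
    ring

lemma MW_apply (i : Fin n) (f : V n) (x : X n) : M i (W i f) x = -chi (x i) * f x := by
  simp only [M_apply, W_apply, lam_add, lam_e, chi_add, Pi.add_apply, e_apply, lt_irrefl,
    if_true, if_false, chi_one, chi_zero, add_e_e]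
  have := chi_mul_self (lam i x)
  linear_combination (-chi (x i) * f x) * this

lemma M_sq_sub {a b : Fin n} (hab : a ≠ b) (f : V n) :
    M a (M a f - M b f) - M b (M a f - M b f) = -f := by
  rw [map_sub, map_sub, M_M, M_M, M_anti hab]
  funext x
  simp only [Pi.sub_apply, Pi.neg_apply]
  have := z3_three (f x)
  linear_combination this

/-- the lift of the transposition `(a b)` -/
def u (a b : Fin n) (hab : a ≠ b) : V n ≃ₗ[ZMod 3] V n where
  toFun f := M a f - M b f
  map_add' f f' := by simp only [map_add]; abel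
  map_smul' c f := by simp only [map_smul, RingHom.id_apply, smul_sub]
  invFun f := -(M a f - M b f)
  left_inv f := by
    show -(M a (M a f - M b f) - M b (M a f - M b f)) = f
    rw [M_sq_sub hab, neg_neg]
  right_inv f := by
    show M a (-(M a f - M b f)) - M b (-(M a f - M b f)) = f
    rw [map_neg, map_neg, neg_sub_neg, ← neg_sub, M_sq_sub hab, neg_neg]

lemma u_apply (a b : Fin n) (hab : a ≠ b) (f : V n) : u a b hab f = M a f - M b f := rfl

/-- the sign of a permutation in `ZMod 3` -/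
def sg (σ : Equiv.Perm (Fin n)) : ZMod 3 := ((Equiv.Perm.sign σ : ℤ) : ZMod 3)

lemma sg_one : sg (1 : Equiv.Perm (Fin n)) = 1 := by simp [sg]
lemma sg_mul (σ τ : Equiv.Perm (Fin n)) : sg (σ * τ) = sg σ * sg τ := by simp [sg]
lemma sg_swap {a b : Fin n} (h : a ≠ b) : sg (Equiv.swap a b) = -1 := by
  simp [sg, Equiv.Perm.sign_swap h]

/-- `g` normalises the Clifford system according to `σ`, with the sign of `σ` -/
def Good (σ : Equiv.Perm (Fin n)) (g : V n ≃ₗ[ZMod 3] V n) : Prop :=
  (∀ i f, g (M i f) = sg σ • M (σ i) (g f)) ∧ (∀ k f, g (W k f) = sg σ • W k (g f))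

lemma good_one : Good (1 : Equiv.Perm (Fin n)) 1 := by
  constructor <;> intros <;> simp [sg_one]

lemma good_mul {σ τ : Equiv.Perm (Fin n)} {g h : V n ≃ₗ[ZMod 3] V n}
    (hg : Good σ g) (hh : Good τ h) : Good (σ * τ) (g * h) := by
  constructor
  · intro i f
    rw [LinearEquiv.mul_apply, hh.1, map_smul, hg.1, sg_mul, smul_smul, mul_comm]
    rfl
  · intro k f
    rw [LinearEquiv.mul_apply, hh.2, map_smul, hg.2, sg_mul, smul_smul, mul_comm]
    rfl

lemma good_swap {a b : Fin n} (hab : a ≠ b) : Good (Equiv.swap a b) (u a b hab) := by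
  constructor
  · intro i f
    rw [sg_swap hab, neg_one_smul]
    show M a (M i f) - M b (M i f) = -(M (Equiv.swap a b i) (M a f - M b f))
    rw [map_sub]
    by_cases hia : i = a
    · subst hia
      rw [Equiv.swap_apply_left, M_M, M_M]
      abel
    · by_cases hib : i = b
      · subst hib
        rw [Equiv.swap_apply_right, M_M, M_M]
        abel
      · rw [Equiv.swap_apply_of_ne_of_ne hia hib, M_anti hia, M_anti hib]
        abel
  · intro k f
    rw [sg_swap hab, neg_one_smul]
    show M a (W k f) - M b (W k f) = -(W k (M a f - M b f))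
    rw [map_sub, M_W, M_W]
    abel

lemma exists_good (σ : Equiv.Perm (Fin n)) : ∃ g : V n ≃ₗ[ZMod 3] V n, Good σ g := by
  refine Equiv.Perm.swap_induction_on σ ⟨1, good_one⟩ ?_
  rintro f x y hxy ⟨g, hg⟩
  exact ⟨u x y hxy * g, good_mul (good_swap hxy) hg⟩

/-- the unsigned (even) version -/
def Ev (σ : Equiv.Perm (Fin n)) (g : V n ≃ₗ[ZMod 3] V n) : Prop :=
  (∀ i f, g (M i f) = M (σ i) (g f)) ∧ (∀ k f, g (W k f) = W k (g f))

lemma good_ev {σ : Equiv.Perm (Fin n)} {g : V n ≃ₗ[ZMod 3] V n} (h : Good σ g)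
    (hs : Equiv.Perm.sign σ = 1) : Ev σ g := by
  have h1 : sg σ = 1 := by simp [sg, hs]
  constructor
  · intro i f; rw [h.1, h1, one_smul]
  · intro k f; rw [h.2, h1, one_smul]

/-- the double cover, as a subgroup of `A_n × GL(V)` -/
def Gam (n : ℕ) : Subgroup (alternatingGroup (Fin n) × (V n ≃ₗ[ZMod 3] V n)) where
  carrier := {p | Ev p.1.1 p.2}
  mul_mem' := by
    rintro ⟨σ, g⟩ ⟨τ, h⟩ hg hh
    refine ⟨fun i f => ?_, fun k f => ?_⟩
    · show (g * h) (M i f) = M ((σ.1 * τ.1) i) ((g * h) f)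
      rw [LinearEquiv.mul_apply, hh.1, hg.1]
      rfl
    · show (g * h) (W k f) = W k ((g * h) f)
      rw [LinearEquiv.mul_apply, hh.2, hg.2]
      rfl
  one_mem' := ⟨fun i f => rfl, fun k f => rfl⟩
  inv_mem' := by
    rintro ⟨σ, g⟩ hg
    refine ⟨fun i f => ?_, fun k f => ?_⟩
    · show g⁻¹ (M i f) = M ((σ.1)⁻¹ i) (g⁻¹ f)
      apply g.injective
      rw [hg.1]
      simp
    · show g⁻¹ (W k f) = W k (g⁻¹ f)
      apply g.injective
      rw [hg.2]
      simp

lemma mem_Gam (p : alternatingGroup (Fin n) × (V n ≃ₗ[ZMod 3] V n)) :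
    p ∈ Gam n ↔ Ev p.1.1 p.2 := Iff.rfl

lemma ev_one_diag {g : V n ≃ₗ[ZMod 3] V n} (hg : Ev 1 g) (y x : X n) (hxy : x ≠ y)
    (c : ZMod 3) : g (Pi.single y c) x = 0 := by
  obtain ⟨i, hi⟩ : ∃ i, x i ≠ y i := Function.ne_iff.mp hxy
  have h1 : M i (W i (Pi.single y c)) = (-chi (y i)) • (Pi.single y c : V n) := by
    funext z
    rw [MW_apply, Pi.smul_apply, smul_eq_mul]
    by_cases hz : z = y
    · rw [hz]
    · rw [Pi.single_eq_of_ne hz]; simp
  have h2 : g (M i (W i (Pi.single y c))) = M i (W i (g (Pi.single y c))) := by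
    have := hg.1 i (W i (Pi.single y c))
    rw [this, hg.2]; rfl
  rw [h1, map_smul] at h2
  have h3 := congrFun h2 x
  rw [MW_apply, Pi.smul_apply, smul_eq_mul] at h3
  have h4 : chi (x i) ≠ chi (y i) := fun h => hi (chi_inj _ _ h)
  generalize g (Pi.single y c) x = t at h3 ⊢
  generalize x i = a at h3 h4
  generalize y i = b at h3 h4
  revert a b t; decide

lemma ev_one_single {g : V n ≃ₗ[ZMod 3] V n} (hg : Ev 1 g) (y : X n) (c : ZMod 3) :
    g (Pi.single y c) = Pi.single y (g (Pi.single y c) y) := by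
  funext x
  by_cases hx : x = y
  · subst hx; simp
  · rw [ev_one_diag hg y x hx, Pi.single_eq_of_ne hx]

lemma M_single (i : Fin n) (y : X n) (c : ZMod 3) :
    M i (Pi.single y c) = Pi.single (y + e i) (chi (lam i y) * c) := by
  funext x
  rw [M_apply]
  by_cases hx : x = y + e i
  · subst hx
    rw [add_e_e, Pi.single_eq_same, Pi.single_eq_same, lam_add, lam_e, if_neg (lt_irrefl i),
      add_zero]
  · have : x + e i ≠ y := fun h => hx (by rw [← h, add_e_e])
    rw [Pi.single_eq_of_ne this, Pi.single_eq_of_ne hx, mul_zero]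

lemma single_smul_one (y : X n) (a : ZMod 3) :
    (Pi.single y a : V n) = a • (Pi.single y 1 : V n) := by
  funext x
  by_cases hx : x = y
  · subst hx; simp
  · simp [Pi.single_eq_of_ne hx]

lemma ev_one_scalar {g : V n ≃ₗ[ZMod 3] V n} (hg : Ev 1 g) :
    ∃ c : ZMod 3, ∀ f : V n, g f = c • f := by
  have hM : ∀ i f, g (M i f) = M i (g f) := fun i f => hg.1 i f
  let c : X n → ZMod 3 := fun y => g (Pi.single y 1) y
  have hs1 : ∀ y, g (Pi.single y 1) = Pi.single y (c y) := fun y => ev_one_single hg y 1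
  have hsa : ∀ y a, g (Pi.single y a) = Pi.single y (a * c y) := by
    intro y a
    rw [single_smul_one y a, map_smul, hs1, single_smul_one y (c y), single_smul_one y (a * c y),
      smul_smul]
  have hstep : ∀ y i, c (y + e i) = c y := by
    intro y i
    have h1 := hM i (Pi.single y 1)
    rw [M_single, hsa, hs1, M_single] at h1
    have h2 := congrFun h1 (y + e i)
    simp only [Pi.single_eq_same] at h2
    have h3 : chi (lam i y) * (chi (lam i y) * 1 * c (y + e i))
        = chi (lam i y) * (chi (lam i y) * c y) := by rw [h2]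
    have h4 := chi_mul_self (lam i y)
    linear_combination h3 - (c (y + e i) - c y) * h4
  have hconst : ∀ t y, c (y + t) = c y := by
    intro t
    rw [← Finset.univ_sum_single t]
    apply Finset.sum_induction _ (fun t => ∀ y, c (y + t) = c y)
    · intro a b ha hb y; rw [← add_assoc, hb, ha]
    · intro y; rw [add_zero]
    · intro i _ y
      rcases (by decide : ∀ a : ZMod 2, a = 0 ∨ a = 1) (t i) with h | h
      · rw [h, Pi.single_zero, add_zero]
      · rw [h]; exact hstep y i
  have hc : ∀ y, c y = c 0 := fun y => by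
    have := hconst y 0
    rwa [zero_add] at this
  refine ⟨c 0, fun f => ?_⟩
  have hf : f = ∑ y, Pi.single y (f y) := (Finset.univ_sum_single f).symm
  calc g f = g (∑ y, Pi.single y (f y)) := by rw [← hf]
    _ = ∑ y, g (Pi.single y (f y)) := map_sum g _ _
    _ = ∑ y, c 0 • (Pi.single y (f y) : V n) := Finset.sum_congr rfl (fun y _ => by
        rw [hsa, hc, single_smul_one y (f y * c 0), single_smul_one y (f y), smul_smul,
          mul_comm])
    _ = c 0 • ∑ y, (Pi.single y (f y) : V n) := Finset.smul_sum.symm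
    _ = c 0 • f := by rw [← hf]

lemma ev_one_cases {g : V n ≃ₗ[ZMod 3] V n} (hg : Ev 1 g) :
    g = 1 ∨ g = LinearEquiv.neg (ZMod 3) := by
  obtain ⟨c, hc⟩ := ev_one_scalar hg
  have h0 : c ≠ 0 := by
    intro h0
    have h1 : g (Pi.single 0 1) = g 0 := by rw [hc, h0, zero_smul, map_zero]
    have h2 := g.injective h1
    have h3 := congrFun h2 0
    simp at h3
  rcases (by decide : ∀ c : ZMod 3, c ≠ 0 → c = 1 ∨ c = -1) c h0 with h | h
  · left
    apply LinearEquiv.ext
    intro f
    rw [hc, h, one_smul]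
    rfl
  · right
    apply LinearEquiv.ext
    intro f
    rw [hc, h, neg_one_smul]
    rfl

lemma neg_ev : Ev (1 : Equiv.Perm (Fin n)) (LinearEquiv.neg (ZMod 3)) := by
  constructor
  · intro i f
    show -(M i f) = M i (-f)
    rw [map_neg]
  · intro k f
    show -(W k f) = W k (-f)
    rw [map_neg]

lemma M_index_inj {i j : Fin n} (h : ∀ f : V n, M i f = M j f) : i = j := by
  have h1 := congrFun (h (Pi.single (e i) 1)) 0
  rw [M_apply, M_apply, lam_zero, lam_zero, chi_zero, one_mul, one_mul, zero_add, zero_add,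
    Pi.single_eq_same] at h1
  by_contra hij
  have h2 : e j ≠ e i := by
    intro h2
    have h3 := congrFun h2 i
    rw [e_apply, e_apply, if_pos rfl, if_neg hij] at h3
    exact absurd h3 (by decide)
  rw [Pi.single_eq_of_ne h2] at h1
  exact absurd h1 (by decide)

lemma ev_neg_fst {σ : Equiv.Perm (Fin n)} (h : Ev σ (LinearEquiv.neg (ZMod 3))) : σ = 1 := by
  ext i
  have h1 : ∀ f : V n, M i f = M (σ i) f := by
    intro f
    have h2 := h.1 i f
    have h3 : -(M i f) = M (σ i) (-f) := h2
    rw [map_neg, neg_inj] at h3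
    exact h3
  rw [← M_index_inj h1]
  rfl

lemma u_anti {a b c d : Fin n} (hac : a ≠ c) (hbd : b ≠ d) (hab : a ≠ b) (hcd : c ≠ d)
    (had : a ≠ d) (hbc : b ≠ c) (v : V n) :
    u b d hbd (u a c hac v) = -(u a c hac (u b d hbd v)) := by
  simp only [u_apply, map_sub]
  rw [M_anti hab.symm, M_anti hbc, M_anti had.symm, M_anti hcd.symm]
  abel

/-- the central involution of `Gam n` -/
def zG (n : ℕ) : Gam n := ⟨(1, LinearEquiv.neg (ZMod 3)), neg_ev⟩

lemma zG_center (n : ℕ) : zG n ∈ Subgroup.center (Gam n) := by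
  rw [Subgroup.mem_center_iff]
  rintro ⟨⟨σ, g⟩, hp⟩
  apply Subtype.ext
  apply Prod.ext
  · show σ * 1 = 1 * σ
    rw [mul_one, one_mul]
  · show g * LinearEquiv.neg (ZMod 3) = LinearEquiv.neg (ZMod 3) * g
    apply LinearEquiv.ext
    intro f
    show g (-f) = -(g f)
    rw [map_neg]

lemma neg_ne_one (n : ℕ) : (LinearEquiv.neg (ZMod 3) : V n ≃ₗ[ZMod 3] V n) ≠ 1 := by
  intro h1
  have h2 : (LinearEquiv.neg (ZMod 3) : V n ≃ₗ[ZMod 3] V n) (Pi.single 0 1)
      = (1 : V n ≃ₗ[ZMod 3] V n) (Pi.single 0 1) := by rw [h1]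
  have h3 : -(Pi.single (0 : X n) (1 : ZMod 3) : V n) 0
      = (Pi.single (0 : X n) (1 : ZMod 3) : V n) 0 := congrFun h2 0
  rw [Pi.single_eq_same] at h3
  exact absurd h3 (by decide)

lemma zG_ne_one (n : ℕ) : zG n ≠ 1 := by
  intro h
  exact neg_ne_one n (congrArg (fun p : Gam n => p.1.2) h)

lemma zG_sq (n : ℕ) : zG n ^ 2 = 1 := by
  apply Subtype.ext
  apply Prod.ext
  · show ((1 : alternatingGroup (Fin n)) ^ 2) = 1
    rw [one_pow]
  · show (LinearEquiv.neg (ZMod 3) : V n ≃ₗ[ZMod 3] V n) ^ 2 = 1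
    apply LinearEquiv.ext
    intro f
    rw [pow_two]
    show - -f = f
    rw [neg_neg]

lemma zG_order (n : ℕ) : orderOf (zG n) = 2 := orderOf_eq_prime (zG_sq n) (zG_ne_one n)

/-- the covering map -/
def phi (n : ℕ) : Gam n →* alternatingGroup (Fin n) :=
  (MonoidHom.fst _ _).comp (Gam n).subtype

lemma phi_surj (n : ℕ) : Function.Surjective (phi n) := by
  intro σ
  obtain ⟨g, hg⟩ := exists_good σ.1
  exact ⟨⟨(σ, g), good_ev hg (Equiv.Perm.mem_alternatingGroup.mp σ.2)⟩, rfl⟩

lemma phi_ker (n : ℕ) : (phi n).ker = Subgroup.zpowers (zG n) := by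
  apply le_antisymm
  · rintro ⟨⟨σ, g⟩, hp⟩ hmem
    have h1 : σ = 1 := hmem
    subst h1
    have hp' : Ev (1 : Equiv.Perm (Fin n)) g := hp
    rcases ev_one_cases hp' with h | h
    · subst h
      exact Subgroup.one_mem _
    · subst h
      exact Subgroup.mem_zpowers (zG n)
  · rw [Subgroup.zpowers_le]
    show phi n (zG n) = 1
    rfl

lemma eq_zG_of_snd (p : Gam n) (h : p.1.2 = LinearEquiv.neg (ZMod 3)) : p = zG n := by
  have hmem : Ev p.1.1.1 p.1.2 := p.2
  rw [h] at hmem
  apply Subtype.ext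
  exact Prod.ext (Subtype.ext (ev_neg_fst hmem)) h

lemma zG_comm_aux {a b c d : Fin n} (hab : a ≠ b) (hcd : c ≠ d) (hac : a ≠ c) (hbd : b ≠ d)
    (had : a ≠ d) (hbc : b ≠ c) :
    ∃ A B : Gam n, A * B * A⁻¹ * B⁻¹ = zG n := by
  have hsA : Equiv.Perm.sign (Equiv.swap a b * Equiv.swap c d) = 1 := by
    simp [Equiv.Perm.sign_swap hab, Equiv.Perm.sign_swap hcd]
  have hsB : Equiv.Perm.sign (Equiv.swap a c * Equiv.swap b d) = 1 := by
    simp [Equiv.Perm.sign_swap hac, Equiv.Perm.sign_swap hbd]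
  have hgA : Ev (Equiv.swap a b * Equiv.swap c d) (u a b hab * u c d hcd) :=
    good_ev (good_mul (good_swap hab) (good_swap hcd)) hsA
  have hgB : Ev (Equiv.swap a c * Equiv.swap b d) (u a c hac * u b d hbd) :=
    good_ev (good_mul (good_swap hac) (good_swap hbd)) hsB
  have hσa : (Equiv.swap a b * Equiv.swap c d) a = b := by
    show Equiv.swap a b (Equiv.swap c d a) = b
    rw [Equiv.swap_apply_of_ne_of_ne hac had, Equiv.swap_apply_left]
  have hσb : (Equiv.swap a b * Equiv.swap c d) b = a := by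
    show Equiv.swap a b (Equiv.swap c d b) = a
    rw [Equiv.swap_apply_of_ne_of_ne hbc hbd, Equiv.swap_apply_right]
  have hσc : (Equiv.swap a b * Equiv.swap c d) c = d := by
    show Equiv.swap a b (Equiv.swap c d c) = d
    rw [Equiv.swap_apply_left, Equiv.swap_apply_of_ne_of_ne had.symm hbd.symm]
  have hσd : (Equiv.swap a b * Equiv.swap c d) d = c := by
    show Equiv.swap a b (Equiv.swap c d d) = c
    rw [Equiv.swap_apply_right, Equiv.swap_apply_of_ne_of_ne hac.symm hbc.symm]
  have hAu1 : ∀ w, (u a b hab * u c d hcd) (u a c hac w)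
      = u b d hbd ((u a b hab * u c d hcd) w) := by
    intro w
    rw [u_apply a c, map_sub, hgA.1, hgA.1, hσa, hσc, u_apply b d]
  have hAu2 : ∀ w, (u a b hab * u c d hcd) (u b d hbd w)
      = u a c hac ((u a b hab * u c d hcd) w) := by
    intro w
    rw [u_apply b d, map_sub, hgA.1, hgA.1, hσb, hσd, u_apply a c]
  have hkey : (u a b hab * u c d hcd) * (u a c hac * u b d hbd)
      = LinearEquiv.neg (ZMod 3) * (u a c hac * u b d hbd) * (u a b hab * u c d hcd) := by
    apply LinearEquiv.ext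
    intro f
    show (u a b hab * u c d hcd) (u a c hac (u b d hbd f))
      = -(u a c hac (u b d hbd ((u a b hab * u c d hcd) f)))
    rw [hAu1, hAu2, u_anti hac hbd hab hcd had hbc]
  refine ⟨⟨(⟨_, Equiv.Perm.mem_alternatingGroup.mpr hsA⟩, _), hgA⟩,
    ⟨(⟨_, Equiv.Perm.mem_alternatingGroup.mpr hsB⟩, _), hgB⟩, ?_⟩
  apply eq_zG_of_snd
  show (u a b hab * u c d hcd) * (u a c hac * u b d hbd) * (u a b hab * u c d hcd)⁻¹
      * (u a c hac * u b d hbd)⁻¹ = LinearEquiv.neg (ZMod 3)
  rw [hkey]
  group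

lemma zG_comm (n : ℕ) (hn : 4 ≤ n) : zG n ∈ commutator (Gam n) := by
  have hab : (⟨0, by omega⟩ : Fin n) ≠ ⟨1, by omega⟩ := by simp [Fin.ext_iff]
  have hac : (⟨0, by omega⟩ : Fin n) ≠ ⟨2, by omega⟩ := by simp [Fin.ext_iff]
  have had : (⟨0, by omega⟩ : Fin n) ≠ ⟨3, by omega⟩ := by simp [Fin.ext_iff]
  have hbc : (⟨1, by omega⟩ : Fin n) ≠ ⟨2, by omega⟩ := by simp [Fin.ext_iff]
  have hbd : (⟨1, by omega⟩ : Fin n) ≠ ⟨3, by omega⟩ := by simp [Fin.ext_iff]
  have hcd : (⟨2, by omega⟩ : Fin n) ≠ ⟨3, by omega⟩ := by simp [Fin.ext_iff]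
  obtain ⟨A, B, hAB⟩ := zG_comm_aux hab hcd hac hbd had hbc
  rw [commutator_def, ← hAB, ← commutatorElement_def]
  exact Subgroup.commutator_mem_commutator (Subgroup.mem_top _) (Subgroup.mem_top _)

lemma finite_GL (n : ℕ) : Finite (V n ≃ₗ[ZMod 3] V n) :=
  Finite.of_injective (fun g => (g : V n → V n)) DFunLike.coe_injective

theorem exists_double_cover (n : ℕ) (hn : 4 ≤ n) :
    ∃ (Γ : Type) (_ : Group Γ) (_ : Finite Γ) (z : Γ) (_ : z ∈ Subgroup.center Γ),
      orderOf z = 2 ∧ z ∈ commutator Γ ∧ ∃ _ : (Subgroup.zpowers z).Normal,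
        Nonempty (Γ ⧸ Subgroup.zpowers z ≃* alternatingGroup (Fin n)) := by
  have := finite_GL n
  have hnorm : (Subgroup.zpowers (zG n)).Normal := phi_ker n ▸ inferInstance
  exact ⟨Gam n, inferInstance, inferInstance, zG n, zG_center n, zG_order n, zG_comm n hn, hnorm,
    ⟨(QuotientGroup.quotientMulEquivOfEq (phi_ker n).symm).trans
      (QuotientGroup.quotientKerEquivOfSurjective (phi n) (phi_surj n))⟩⟩

end Cfsg.Agent.Lib.Helper1.DC
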