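import Mathlib
import Cfsg.Agent.Lib.Helper1.DoubleCover

/-!
# More on the double cover `Gam n` of the alternating group (helper1)

* the centre of `Gam n` is `{1, zG n}` (for `n ≥ 4`), and it has no complement;
* in `Gam 8` the lift of `(0 1)(2 3)(4 5)(6 7)` is an involution different from `zG 8`.
-/

set_option autoImplicit false

namespace Cfsg.Agent.Lib.Helper1.DC

variable {n : ℕ}

lemma u_sq {a b : Fin n} (hab : a ≠ b) (f : V n) : u a b hab (u a b hab f) = -f :=
  M_sq_sub hab f

lemma one_ev_fst {σ : Equiv.Perm (Fin n)} (h : Ev σ (1 : V n ≃ₗ[ZMod 3] V n)) : σ = 1 := by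
  ext i
  have h1 : ∀ f : V n, M i f = M (σ i) f := fun f => h.1 i f
  rw [← M_index_inj h1]
  rfl

lemma eq_one_of_snd (p : Gam n) (h : p.1.2 = 1) : p = 1 := by
  have hmem : Ev p.1.1.1 p.1.2 := p.2
  rw [h] at hmem
  apply Subtype.ext
  exact Prod.ext (Subtype.ext (one_ev_fst hmem)) h

lemma center_Gam (hn : 4 ≤ n) : Subgroup.center (Gam n) = Subgroup.zpowers (zG n) := by
  apply le_antisymm
  · intro c hc
    rw [← phi_ker, MonoidHom.mem_ker]
    have h1 : phi n c ∈ Subgroup.center (alternatingGroup (Fin n)) := by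
      rw [Subgroup.mem_center_iff]
      intro σ
      obtain ⟨p, rfl⟩ := phi_surj n σ
      rw [← map_mul, ← map_mul, Subgroup.mem_center_iff.mp hc p]
    rw [alternatingGroup.center_eq_bot (by rw [Nat.card_fin]; exact hn)] at h1
    exact Subgroup.mem_bot.mp h1
  · rw [Subgroup.zpowers_le]
    exact zG_center n

lemma card_center_Gam (hn : 4 ≤ n) : Nat.card (Subgroup.center (Gam n)) = 2 := by
  rw [center_Gam hn, Nat.card_zpowers, zG_order]

lemma quot_center_Gam (hn : 4 ≤ n) :
    Nonempty (Gam n ⧸ Subgroup.center (Gam n) ≃* alternatingGroup (Fin n)) := by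
  have h : Subgroup.center (Gam n) = (phi n).ker := by rw [center_Gam hn, phi_ker]
  exact ⟨(QuotientGroup.quotientMulEquivOfEq h).trans
    (QuotientGroup.quotientKerEquivOfSurjective (phi n) (phi_surj n))⟩

lemma Gam_nonsplit (hn : 4 ≤ n) (L : Subgroup (Gam n)) :
    ¬ (Subgroup.center (Gam n)).IsComplement' L := by
  intro hL
  have hidx : L.index = 2 := by
    rw [hL.index_eq_card, card_center_Gam hn]
  have hcomm : commutator (Gam n) ≤ L := by
    rw [commutator_def, Subgroup.commutator_le]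
    intro g _ h _
    rw [commutatorElement_def, Subgroup.mul_mem_iff_of_index_two hidx,
      Subgroup.mul_mem_iff_of_index_two hidx, Subgroup.mul_mem_iff_of_index_two hidx,
      inv_mem_iff, inv_mem_iff]
    tauto
  have hz : zG n ∈ L := hcomm (zG_comm n hn)
  have hz' : zG n ∈ Subgroup.center (Gam n) := zG_center n
  exact zG_ne_one n (Subgroup.disjoint_def.mp hL.disjoint hz' hz)

/-- four pairwise anticommuting operators of square `-1`: the product squares to `1` -/
lemma four_anti_sq (A B C D : V n ≃ₗ[ZMod 3] V n)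
    (hAA : ∀ w, A (A w) = -w) (hBB : ∀ w, B (B w) = -w) (hCC : ∀ w, C (C w) = -w)
    (hDD : ∀ w, D (D w) = -w)
    (hBA : ∀ w, B (A w) = -(A (B w))) (hCA : ∀ w, C (A w) = -(A (C w)))
    (hDA : ∀ w, D (A w) = -(A (D w))) (hCB : ∀ w, C (B w) = -(B (C w)))
    (hDB : ∀ w, D (B w) = -(B (D w))) (hDC : ∀ w, D (C w) = -(C (D w))) :
    (A * B * C * D) * (A * B * C * D) = 1 := by
  apply LinearEquiv.ext
  intro f
  simp only [LinearEquiv.mul_apply, hDA, hCA, hBA, hDB, hCB, hDC, hAA, hBB, hCC, hDD, map_neg,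
    neg_neg]
  rfl

lemma exists_second_involution : ∃ g : Gam 8, g ≠ zG 8 ∧ orderOf g = 2 := by
  have h01 : (0 : Fin 8) ≠ 1 := by decide
  have h23 : (2 : Fin 8) ≠ 3 := by decide
  have h45 : (4 : Fin 8) ≠ 5 := by decide
  have h67 : (6 : Fin 8) ≠ 7 := by decide
  have hs : Equiv.Perm.sign (Equiv.swap (0 : Fin 8) 1 * Equiv.swap 2 3 * Equiv.swap 4 5
      * Equiv.swap 6 7) = 1 := by
    simp [Equiv.Perm.sign_swap h01, Equiv.Perm.sign_swap h23, Equiv.Perm.sign_swap h45,
      Equiv.Perm.sign_swap h67]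
  have hev : Ev (Equiv.swap (0 : Fin 8) 1 * Equiv.swap 2 3 * Equiv.swap 4 5 * Equiv.swap 6 7)
      (u 0 1 h01 * u 2 3 h23 * u 4 5 h45 * u 6 7 h67) :=
    good_ev (good_mul (good_mul (good_mul (good_swap h01) (good_swap h23)) (good_swap h45))
      (good_swap h67)) hs
  have hsq : (u 0 1 h01 * u 2 3 h23 * u 4 5 h45 * u 6 7 h67)
      * (u (0 : Fin 8) 1 h01 * u 2 3 h23 * u 4 5 h45 * u 6 7 h67) = 1 := by
    apply four_anti_sq
    · exact u_sq h01
    · exact u_sq h23
    · exact u_sq h45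
    · exact u_sq h67
    · exact u_anti h01 h23 (by decide) (by decide) (by decide) (by decide)
    · exact u_anti h01 h45 (by decide) (by decide) (by decide) (by decide)
    · exact u_anti h01 h67 (by decide) (by decide) (by decide) (by decide)
    · exact u_anti h23 h45 (by decide) (by decide) (by decide) (by decide)
    · exact u_anti h23 h67 (by decide) (by decide) (by decide) (by decide)
    · exact u_anti h45 h67 (by decide) (by decide) (by decide) (by decide)
  let g : Gam 8 := ⟨(⟨_, Equiv.Perm.mem_alternatingGroup.mpr hs⟩, _), hev⟩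
  have hg0 : (Equiv.swap (0 : Fin 8) 1 * Equiv.swap 2 3 * Equiv.swap 4 5 * Equiv.swap 6 7 :
      Equiv.Perm (Fin 8)) 0 = 1 := by
    decide
  have hg1 : (g.1.1 : Equiv.Perm (Fin 8)) 0 = 1 := hg0
  have hgne1 : g ≠ 1 := by
    intro h
    have h2 : (g.1.1 : Equiv.Perm (Fin 8)) 0 = 0 := by rw [h]; rfl
    rw [hg1] at h2
    exact absurd h2 (by decide)
  have hgz : g ≠ zG 8 := by
    intro h
    have h2 : (g.1.1 : Equiv.Perm (Fin 8)) 0 = 0 := by rw [h]; rfl
    rw [hg1] at h2
    exact absurd h2 (by decide)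
  have hg2 : g ^ 2 = 1 := by
    apply eq_one_of_snd
    rw [pow_two]
    exact hsq
  exact ⟨g, hgz, orderOf_eq_prime hg2 hgne1⟩

end Cfsg.Agent.Lib.Helper1.DC
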